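import Mathlib
import Cfsg.Agent.Lib.Helper82.S4415.MonDefs

/-!
# S4415 [MON], sub-package [MON-4SQ]: in degree 4, squares of elements of `R` lie in `{1, z}`
-/

set_option autoImplicit false

namespace Cfsg.Agent.Lib.Helper13.S4415

open Cfsg.Agent.Lib.Helper82.S4415

universe u

/-- Signed permutation data is injective. -/
theorem sp_inj13 {G : Type u} [Group G] {n : ℕ} {σ : G →* Equiv.Perm (Fin n)}
    {ε : G → Fin n → ZMod 3} (hSP : SP σ ε) (g h : G) (hσ : σ g = σ h)
    (hε : ∀ i, ε g i = ε h i) : g = h := by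
  obtain ⟨hpm, hcoc, hfaith⟩ := hSP
  have hk : g * h⁻¹ = 1 := by
    apply hfaith
    · rw [map_mul, map_inv, hσ, mul_inv_cancel]
    · intro j
      obtain ⟨i, rfl⟩ := (σ h).surjective j
      have h1 := hcoc (g * h⁻¹) h i
      rw [inv_mul_cancel_right, hε i] at h1
      have hne : ε h i ≠ 0 := by
        rcases hpm h i with h | h <;> rw [h] <;> decide
      have h2 : ε h i * 1 = ε h i * ε (g * h⁻¹) (σ h i) := by
        rw [mul_one]
        exact h1
      exact (mul_left_cancel₀ hne h2).symm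
  exact mul_inv_eq_one.mp hk

theorem pm_mul13 (x y : ZMod 3) (hx : x = 1 ∨ x = -1) (hy : y = 1 ∨ y = -1) :
    x * y = 1 ∨ x * y = -1 := by
  rcases hx with rfl | rfl <;> rcases hy with rfl | rfl <;> simp

theorem fpf_classify13 : ∀ p : Equiv.Perm (Fin 4), (∀ i, p i ≠ i ∧ p (p i) = i) →
    (p 0 = 1 ∧ p 1 = 0 ∧ p 2 = 3 ∧ p 3 = 2) ∨ (p 0 = 2 ∧ p 2 = 0 ∧ p 1 = 3 ∧ p 3 = 1) ∨
    (p 0 = 3 ∧ p 3 = 0 ∧ p 1 = 2 ∧ p 2 = 1) := by
  decide

theorem fpf_aux13 (a : Fin 4 → ZMod 3) (ha : ∀ i, a i = 1 ∨ a i = -1) (i j k l : Fin 4)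
    (hprod : a i * a j * (a k * a l) = 1) :
    (a i * a j = 1 ∧ a k * a l = 1) ∨ (a i * a j = -1 ∧ a k * a l = -1) := by
  rcases pm_mul13 _ _ (ha i) (ha j) with h | h
  · left
    refine ⟨h, ?_⟩
    rw [h, one_mul] at hprod
    exact hprod
  · right
    refine ⟨h, ?_⟩
    rw [h, neg_one_mul] at hprod
    exact neg_eq_iff_eq_neg.mp hprod

theorem forall_fin_four13 (P : Fin 4 → Prop) (h0 : P 0) (h1 : P 1) (h2 : P 2) (h3 : P 3) :
    ∀ i, P i := by
  intro i
  fin_cases i <;> assumption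

/-- For a fixed-point-free involution `p` of `Fin 4` and a sign vector `a` of product one,
`i ↦ a i * a (p i)` is constant. -/
theorem fpf_const13 (p : Equiv.Perm (Fin 4)) (hp : ∀ i, p i ≠ i ∧ p (p i) = i)
    (a : Fin 4 → ZMod 3) (ha : ∀ i, a i = 1 ∨ a i = -1) (hprod : ∏ i, a i = 1) :
    (∀ i, a i * a (p i) = 1) ∨ (∀ i, a i * a (p i) = -1) := by
  rw [Fin.prod_univ_four] at hprod
  rcases fpf_classify13 p hp with ⟨h0, h1, h2, h3⟩ | ⟨h0, h2, h1, h3⟩ | ⟨h0, h3, h1, h2⟩
  · rcases fpf_aux13 a ha 0 1 2 3 (by rw [← hprod]; ring) with ⟨hs, ht⟩ | ⟨hs, ht⟩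
    · left
      apply forall_fin_four13
      · rw [h0]; exact hs
      · rw [h1, mul_comm]; exact hs
      · rw [h2]; exact ht
      · rw [h3, mul_comm]; exact ht
    · right
      apply forall_fin_four13
      · rw [h0]; exact hs
      · rw [h1, mul_comm]; exact hs
      · rw [h2]; exact ht
      · rw [h3, mul_comm]; exact ht
  · rcases fpf_aux13 a ha 0 2 1 3 (by rw [← hprod]; ring) with ⟨hs, ht⟩ | ⟨hs, ht⟩
    · left
      apply forall_fin_four13
      · rw [h0]; exact hs
      · rw [h1]; exact ht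
      · rw [h2, mul_comm]; exact hs
      · rw [h3, mul_comm]; exact ht
    · right
      apply forall_fin_four13
      · rw [h0]; exact hs
      · rw [h1]; exact ht
      · rw [h2, mul_comm]; exact hs
      · rw [h3, mul_comm]; exact ht
  · rcases fpf_aux13 a ha 0 3 1 2 (by rw [← hprod]; ring) with ⟨hs, ht⟩ | ⟨hs, ht⟩
    · left
      apply forall_fin_four13
      · rw [h0]; exact hs
      · rw [h1]; exact ht
      · rw [h2, mul_comm]; exact ht
      · rw [h3, mul_comm]; exact hs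
    · right
      apply forall_fin_four13
      · rw [h0]; exact hs
      · rw [h1]; exact ht
      · rw [h2, mul_comm]; exact ht
      · rw [h3, mul_comm]; exact hs

theorem pkgMon4SQ : PkgMon4SQ.{u} := by
  intro G _ R σ ε z hSP hfpf hprod hσz hεz x hx
  have hinj := sp_inj13 hSP
  obtain ⟨hpm, hcoc, hfaith⟩ := hSP
  have hσxx : σ (x * x) = 1 := by
    rw [map_mul]
    rcases hfpf x hx with h1 | h2
    · rw [h1, one_mul]
    · ext i
      rw [Equiv.Perm.mul_apply, (h2 i).2, Equiv.Perm.one_apply]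
  have hεxx : ∀ i, ε (x * x) i = ε x i * ε x (σ x i) := fun i => hcoc x x i
  rcases hfpf x hx with h1 | h2
  · left
    apply hfaith _ hσxx
    intro i
    rw [hεxx, h1, Equiv.Perm.one_apply]
    rcases hpm x i with h | h <;> rw [h] <;> simp
  · rcases fpf_const13 (σ x) h2 (ε x) (hpm x) (hprod x hx) with hc | hc
    · left
      apply hfaith _ hσxx
      intro i
      rw [hεxx]
      exact hc i
    · right
      apply hinj
      · rw [hσxx, hσz]
      · intro i
        rw [hεxx, hc i, hεz i]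

end Cfsg.Agent.Lib.Helper13.S4415
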