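import Mathlib
import Cfsg.Agent.Lib.Helper82.S4415.MonDefs
import Cfsg.Agent.Lib.Helper13.S4415.Mon4SQ

/-!
# S4415 [MON], sub-package [MON-4CEN]: in degree 4, the centre of `R` is `{1, z}`
-/

set_option autoImplicit false

namespace Cfsg.Agent.Lib.Helper13.S4415

open Cfsg.Agent.Lib.Helper82.S4415

universe u

theorem exists_third13 : ∀ k : Fin 4, ∃ j : Fin 4, j ≠ 0 ∧ j ≠ k := by decide

theorem prod_two_neg13 : ∀ j : Fin 4, j ≠ 0 →
    ∏ i : Fin 4, (if i = 0 ∨ i = j then (-1 : ZMod 3) else 1) = 1 := by decide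

theorem pkgMon4Cen : PkgMon4Cen.{u} := by
  intro G _ R σ ε z hSP hfpf htrans hsign hσz hεz x hx hcen
  have hinj := sp_inj13 hSP
  obtain ⟨hpm, hcoc, hfaith⟩ := hSP
  have hne : ∀ g i, ε g i ≠ 0 := by
    intro g i
    rcases hpm g i with h | h <;> rw [h] <;> decide
  have hσx : σ x = 1 := by
    rcases hfpf x hx with h1 | hp2
    · exact h1
    · exfalso
      obtain ⟨j, hj0, hjp⟩ := exists_third13 (σ x 0)
      obtain ⟨y, hyR, hσy, hεy⟩ := hsign (fun i => if i = 0 ∨ i = j then -1 else 1)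
        ⟨fun i => by by_cases h : i = 0 ∨ i = j <;> simp [h], prod_two_neg13 j hj0⟩
      have h1 := hcoc x y 0
      have h2 := hcoc y x 0
      rw [hcen y hyR, h2, hσy, Equiv.Perm.one_apply, hεy, hεy] at h1
      have hx0 : σ x 0 ≠ 0 := (hp2 0).1
      have e1 : (if (σ x 0 = 0 ∨ σ x 0 = j) then (-1 : ZMod 3) else 1) = 1 := by
        rw [if_neg]
        rintro (h | h)
        · exact hx0 h
        · exact hjp h.symm
      have e2 : (if ((0 : Fin 4) = 0 ∨ (0 : Fin 4) = j) then (-1 : ZMod 3) else 1) = -1 := by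
        rw [if_pos (Or.inl rfl)]
      rw [e1, e2] at h1
      rcases hpm x 0 with h | h
      · rw [h] at h1
        revert h1
        decide
      · rw [h] at h1
        revert h1
        decide
  have hconst : ∀ i j, ε x j = ε x i := by
    intro i j
    obtain ⟨r, hrR, hr⟩ := htrans i j
    have h1 := hcoc x r i
    have h2 := hcoc r x i
    rw [hcen r hrR, h2, hσx, hr, Equiv.Perm.one_apply] at h1
    have h3 : ε r i * ε x i = ε r i * ε x j := by
      rw [mul_comm]
      exact h1
    exact (mul_left_cancel₀ (hne r i) h3).symm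
  rcases hpm x 0 with h | h
  · left
    apply hfaith x hσx
    intro i
    rw [hconst 0 i, h]
  · right
    apply hinj
    · rw [hσx, hσz]
    · intro i
      rw [hconst 0 i, h, hεz i]

end Cfsg.Agent.Lib.Helper13.S4415
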